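import Mathlib
import Cfsg.Agent.Lib.Helper35.JR.Defs

/-!
# JR package [MULT]: no perfect central 2-extension
-/

set_option autoImplicit false

namespace Cfsg.Agent.Lib.Helper34.JR

open Cfsg.Agent.Lib.Helper35.JR

universe u

/-- The commutator word `l m l⁻¹ m⁻¹`. -/
def cm {L : Type*} [Group L] (l m : L) : L := l * m * l⁻¹ * m⁻¹

theorem cm_mul_left {L : Type*} [Group L] (l l' m : L)
    (hc : ∀ g : L, cm l' m * g = g * cm l' m) : cm (l * l') m = cm l m * cm l' m := by
  calc cm (l * l') m = l * cm l' m * (m * l⁻¹ * m⁻¹) := by unfold cm; group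
    _ = cm l' m * l * (m * l⁻¹ * m⁻¹) := by rw [← hc l]
    _ = cm l' m * cm l m := by unfold cm; group
    _ = cm l m * cm l' m := hc (cm l m)

theorem cm_symm_inv {L : Type*} [Group L] (l m : L) : cm m l = (cm l m)⁻¹ := by
  unfold cm; group

theorem cm_self {L : Type*} [Group L] (l : L) : cm l l = 1 := by unfold cm; group

theorem cm_one_left {L : Type*} [Group L] (l : L) : cm 1 l = 1 := by unfold cm; group

theorem cm_conj {L : Type*} [Group L] (n l m : L) :
    cm (n * l * n⁻¹) (n * m * n⁻¹) = n * cm l m * n⁻¹ := by unfold cm; group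

theorem cm_of_comm {L : Type*} [Group L] (l m : L) (h : l * m = m * l) : cm l m = 1 := by
  unfold cm; rw [h]; group

open scoped IsMulCommutative in
theorem pkgMult : PkgMult.{u} := by
  intro G _ _ hS8 hFus L _ _ Z _ hperf hZc hZ2 ⟨e⟩
  classical
  let π : L →* G := e.toMonoidHom.comp (QuotientGroup.mk' Z)
  have hπsurj : Function.Surjective π := e.surjective.comp (QuotientGroup.mk'_surjective Z)
  have hker : ∀ l : L, π l = 1 ↔ l ∈ Z := by
    intro l
    show e (QuotientGroup.mk' Z l) = 1 ↔ l ∈ Z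
    rw [MulEquiv.map_eq_one_iff]
    exact QuotientGroup.eq_one_iff l
  have hcen : ∀ w ∈ Z, ∀ g : L, w * g = g * w := fun w hw g =>
    ((Subgroup.mem_center_iff.mp (hZc hw)) g).symm
  obtain ⟨S⟩ : Nonempty (Sylow 2 G) := inferInstance
  obtain ⟨hcard, hexp⟩ := hS8 S
  have hinv : ∀ a ∈ (S : Subgroup G), a⁻¹ = a := by
    intro a ha
    rw [inv_eq_iff_mul_eq_one, ← sq]; exact hexp a ha
  have hSab : ∀ a ∈ (S : Subgroup G), ∀ b ∈ (S : Subgroup G), a * b = b * a := by
    intro a ha b hb
    have h4 := hinv (a * b) (mul_mem ha hb)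
    rw [mul_inv_rev, hinv a ha, hinv b hb] at h4
    exact h4.symm
  have hcmZ : ∀ l m : L, π l ∈ (S : Subgroup G) → π m ∈ (S : Subgroup G) → cm l m ∈ Z := by
    intro l m hl hm
    rw [← hker]
    show π (l * m * l⁻¹ * m⁻¹) = 1
    rw [map_mul, map_mul, map_mul, map_inv, map_inv, hSab _ hl _ hm]
    group
  have hsqZ : ∀ l : L, π l ∈ (S : Subgroup G) → l * l ∈ Z := by
    intro l hl
    rw [← hker, map_mul, ← sq]; exact hexp _ hl
  have hcm_sq : ∀ l m : L, π l ∈ (S : Subgroup G) → π m ∈ (S : Subgroup G) →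
      cm l m * cm l m = 1 := by
    intro l m hl hm
    have h1 := cm_mul_left l l m (hcen _ (hcmZ l m hl hm))
    rw [← h1]
    exact cm_of_comm _ _ (hcen _ (hsqZ l hl) m)
  have hcmcen : ∀ l m, π l ∈ (S : Subgroup G) → π m ∈ (S : Subgroup G) →
      ∀ g, cm l m * g = g * cm l m := fun l m hl hm => hcen _ (hcmZ l m hl hm)
  -- the preimage of `S` is abelian
  have hab : ∀ l m : L, π l ∈ (S : Subgroup G) → π m ∈ (S : Subgroup G) → l * m = m * l := by
    by_contra hcon
    push Not at hcon
    obtain ⟨x, y, hx, hy, hxy⟩ := hcon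
    have hzZ : cm x y ∈ Z := hcmZ x y hx hy
    have hz1 : cm x y ≠ 1 := by
      intro h; apply hxy
      have : x * y = cm x y * (y * x) := by unfold cm; group
      rw [this, h, one_mul]
    have hzz : cm x y * cm x y = 1 := hcm_sq x y hx hy
    -- a maximal subgroup of `Z` not containing `z`
    obtain ⟨Z₀, -, hmax⟩ := (Set.toFinite {K : Subgroup L | K ≤ Z ∧ cm x y ∉ K}).exists_le_maximal
      (a := ⊥) ⟨bot_le, fun h => hz1 (Subgroup.mem_bot.mp h)⟩
    obtain ⟨hZ₀Z, hzZ₀⟩ := hmax.prop
    have hP : ∀ w ∈ Z, w * w = 1 → w ∈ Z₀ ∨ w * cm x y ∈ Z₀ := by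
      intro w hw hww
      by_contra hcon2
      push Not at hcon2
      obtain ⟨hw0, hwz0⟩ := hcon2
      have hwinv : w⁻¹ = w := by rw [inv_eq_iff_mul_eq_one]; exact hww
      let K' : Subgroup L :=
        { carrier := {g | g ∈ Z₀ ∨ w * g ∈ Z₀}
          one_mem' := Or.inl Z₀.one_mem
          mul_mem' := by
            rintro a b (ha | ha) (hb | hb)
            · exact Or.inl (Z₀.mul_mem ha hb)
            · right
              have : w * (a * b) = a * (w * b) := by rw [← mul_assoc, hcen w hw a, mul_assoc]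
              rw [this]; exact Z₀.mul_mem ha hb
            · right
              rw [← mul_assoc]; exact Z₀.mul_mem ha hb
            · left
              have h1 : w * a * (w * b) = w * w * (a * b) :=
                (show Commute a w from (hcen w hw a).symm).mul_mul_mul_comm w b
              have : a * b = (w * a) * (w * b) := by rw [h1, hww, one_mul]
              rw [this]; exact Z₀.mul_mem ha hb
          inv_mem' := by
            rintro a (ha | ha)
            · exact Or.inl (Z₀.inv_mem ha)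
            · right
              have : w * a⁻¹ = (w * a)⁻¹ := by rw [mul_inv_rev, hwinv, hcen w hw a⁻¹]
              rw [this]; exact Z₀.inv_mem ha }
      have hK'Z : K' ≤ Z := by
        rintro g (hg | hg)
        · exact hZ₀Z hg
        · have : g = w⁻¹ * (w * g) := by group
          rw [this]; exact Z.mul_mem (Z.inv_mem hw) (hZ₀Z hg)
      have hzK' : cm x y ∉ K' := by
        rintro (h | h)
        · exact hzZ₀ h
        · exact hwz0 h
      have hle : Z₀ ≤ K' := fun g hg => Or.inl hg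
      have hK'le : K' ≤ Z₀ := hmax.le_of_ge ⟨hK'Z, hzK'⟩ hle
      apply hw0
      exact hK'le (Or.inr (by rw [hww]; exact Z₀.one_mem))
    have hO1 : ∀ l l' m, π l ∈ (S : Subgroup G) → π l' ∈ (S : Subgroup G) →
        π m ∈ (S : Subgroup G) → cm l m ∈ Z₀ → cm l' m ∈ Z₀ → cm (l * l') m ∈ Z₀ := by
      intro l l' m hl hl' hm h1 h2
      rw [cm_mul_left l l' m (hcmcen l' m hl' hm)]
      exact Z₀.mul_mem h1 h2
    have hO1' : ∀ l l' m, π l ∈ (S : Subgroup G) → π l' ∈ (S : Subgroup G) →
        π m ∈ (S : Subgroup G) → cm l m ∉ Z₀ → cm l' m ∉ Z₀ → cm (l * l') m ∈ Z₀ := by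
      intro l l' m hl hl' hm h1 h2
      rw [cm_mul_left l l' m (hcmcen l' m hl' hm)]
      have h3 := (hP _ (hcmZ l m hl hm) (hcm_sq l m hl hm)).resolve_left h1
      have h4 := (hP _ (hcmZ l' m hl' hm) (hcm_sq l' m hl' hm)).resolve_left h2
      have h5 : cm l m * cm x y * (cm l' m * cm x y) = cm l m * cm l' m * (cm x y * cm x y) :=
        (show Commute (cm x y) (cm l' m) from hcen _ hzZ _).mul_mul_mul_comm (cm l m) (cm x y)
      have : cm l m * cm l' m = (cm l m * cm x y) * (cm l' m * cm x y) := by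
        rw [h5, hzz, mul_one]
      rw [this]; exact Z₀.mul_mem h3 h4
    have hsym : ∀ l m : L, cm l m ∈ Z₀ → cm m l ∈ Z₀ := by
      intro l m h
      rw [cm_symm_inv]; exact Z₀.inv_mem h
    have hcenZ₀ : ∀ l m : L, l ∈ Z → cm l m ∈ Z₀ := by
      intro l m hl
      rw [cm_of_comm _ _ (hcen l hl m)]; exact Z₀.one_mem
    -- images of x, y
    have hx1 : π x ≠ 1 := by
      intro h; apply hxy
      exact hcen x ((hker x).mp h) y
    have hy1 : π y ≠ 1 := by
      intro h; apply hxy
      exact (hcen y ((hker y).mp h) x).symm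
    have hxy' : π x ≠ π y := by
      intro h; apply hxy
      have hw : y⁻¹ * x ∈ Z := by
        rw [← hker, map_mul, map_inv, h]; group
      have h1 := hcen _ hw y
      calc x * y = y * (y⁻¹ * x * y) := by group
        _ = y * (y * (y⁻¹ * x)) := by rw [h1]
        _ = y * x := by group
    let V : Finset G := {1, π x, π y, π x * π y}
    obtain ⟨g, hgS, hgV⟩ : ∃ g ∈ (S : Subgroup G), g ∉ V := by
      by_contra hcon3
      push Not at hcon3
      have hsub : ((S : Subgroup G) : Set G) ⊆ (V : Set G) := fun g hg => hcon3 g hg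
      have h1 : Nat.card (S : Subgroup G) ≤ 4 := by
        calc Nat.card (S : Subgroup G) = ((S : Subgroup G) : Set G).ncard :=
              (Nat.card_coe_set_eq _)
          _ ≤ (V : Set G).ncard := Set.ncard_le_ncard hsub (Finset.finite_toSet V)
          _ = V.card := Set.ncard_coe_finset V
          _ ≤ 4 := Finset.card_le_four
      omega
    obtain ⟨s, rfl⟩ := hπsurj g
    have hnyx : cm y x ∉ Z₀ := fun h => hzZ₀ (hsym _ _ h)
    obtain ⟨r₁, hr₁S, hr₁x, hr₁V⟩ : ∃ r₁, π r₁ ∈ (S : Subgroup G) ∧ cm r₁ x ∈ Z₀ ∧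
        (π r₁ = π s ∨ π r₁ = π s * π y) := by
      by_cases h : cm s x ∈ Z₀
      · exact ⟨s, hgS, h, Or.inl rfl⟩
      · exact ⟨s * y, by rw [map_mul]; exact mul_mem hgS hy, hO1' s y x hgS hy hx h hnyx,
          Or.inr (map_mul _ _ _)⟩
    obtain ⟨r, hrS, hrx, hry, hrV⟩ : ∃ r, π r ∈ (S : Subgroup G) ∧ cm r x ∈ Z₀ ∧ cm r y ∈ Z₀ ∧
        (π r = π r₁ ∨ π r = π r₁ * π x) := by
      by_cases h : cm r₁ y ∈ Z₀
      · exact ⟨r₁, hr₁S, hr₁x, h, Or.inl rfl⟩
      · refine ⟨r₁ * x, by rw [map_mul]; exact mul_mem hr₁S hx, ?_,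
          hO1' r₁ x y hr₁S hx hy h hzZ₀, Or.inr (map_mul _ _ _)⟩
        exact hO1 r₁ x x hr₁S hx hx hr₁x (by rw [cm_self]; exact Z₀.one_mem)
    -- the subgroup of elements orthogonal to `r`
    let K : Subgroup L :=
      { carrier := {m | π m ∈ (S : Subgroup G) ∧ cm m r ∈ Z₀}
        one_mem' := ⟨by rw [map_one]; exact one_mem _, by rw [cm_one_left]; exact Z₀.one_mem⟩
        mul_mem' := by
          rintro a b ⟨ha, ha'⟩ ⟨hb, hb'⟩
          exact ⟨by rw [map_mul]; exact mul_mem ha hb, hO1 a b r ha hb hrS ha' hb'⟩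
        inv_mem' := by
          rintro a ⟨ha, ha'⟩
          have hainv : π a⁻¹ ∈ (S : Subgroup G) := by rw [map_inv]; exact inv_mem ha
          refine ⟨hainv, ?_⟩
          have h := cm_mul_left a a⁻¹ r (hcmcen a⁻¹ r hainv hrS)
          rw [mul_inv_cancel, cm_one_left] at h
          have : cm a⁻¹ r = (cm a r)⁻¹ := eq_inv_of_mul_eq_one_right h.symm
          rw [this]; exact Z₀.inv_mem ha' }
    have hxK : x ∈ K := ⟨hx, hsym _ _ hrx⟩
    have hyK : y ∈ K := ⟨hy, hsym _ _ hry⟩
    have hrK : r ∈ K := ⟨hrS, by rw [cm_self]; exact Z₀.one_mem⟩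
    have hZK : Z ≤ K := fun w hw =>
      ⟨by rw [(hker w).mpr hw]; exact one_mem _, hcenZ₀ w r hw⟩
    let T : Subgroup G := K.map π
    have hTS : T ≤ (S : Subgroup G) := by
      rintro _ ⟨m, hm, rfl⟩
      exact hm.1
    have hxT : π x ∈ T := ⟨x, hxK, rfl⟩
    have hyT : π y ∈ T := ⟨y, hyK, rfl⟩
    have hrT : π r ∈ T := ⟨r, hrK, rfl⟩
    have hr₁T : π r₁ ∈ T := by
      rcases hrV with h | h
      · rw [← h]; exact hrT
      · have : π r₁ = π r * (π x)⁻¹ := by rw [h]; group
        rw [this]; exact T.mul_mem hrT (T.inv_mem hxT)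
    have hsT : π s ∈ T := by
      rcases hr₁V with h | h
      · rw [← h]; exact hr₁T
      · have : π s = π r₁ * (π y)⁻¹ := by rw [h]; group
        rw [this]; exact T.mul_mem hr₁T (T.inv_mem hyT)
    have hV4 : V.card = 4 := by
      have h3 : π x * π y ≠ π y := fun h => hx1 (by simpa using h)
      have h4 : π x * π y ≠ π x := fun h => hy1 (by simpa using h)
      have h5 : π x * π y ≠ 1 := by
        intro h
        apply hxy'
        have := eq_inv_of_mul_eq_one_left h
        rw [this, hinv _ hy]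
      show ({1, π x, π y, π x * π y} : Finset G).card = 4
      rw [Finset.card_insert_of_notMem, Finset.card_insert_of_notMem,
        Finset.card_insert_of_notMem, Finset.card_singleton]
      · simp only [Finset.mem_singleton]; exact fun h => h3 h.symm
      · simp only [Finset.mem_insert, Finset.mem_singleton, not_or]
        exact ⟨hxy', fun h => h4 h.symm⟩
      · simp only [Finset.mem_insert, Finset.mem_singleton, not_or]
        exact ⟨fun h => hx1 h.symm, fun h => hy1 h.symm, fun h => h5 h.symm⟩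
    have hT5 : 5 ≤ Nat.card T := by
      have hsub : ((insert (π s) V : Finset G) : Set G) ⊆ (T : Set G) := by
        intro a ha
        simp only [Finset.coe_insert, Set.mem_insert_iff, Finset.mem_coe] at ha
        rcases ha with rfl | ha
        · exact hsT
        · simp only [V, Finset.mem_insert, Finset.mem_singleton] at ha
          rcases ha with rfl | rfl | rfl | rfl
          · exact T.one_mem
          · exact hxT
          · exact hyT
          · exact T.mul_mem hxT hyT
      calc 5 = (insert (π s) V : Finset G).card := by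
            rw [Finset.card_insert_of_notMem hgV, hV4]
        _ = ((insert (π s) V : Finset G) : Set G).ncard := (Set.ncard_coe_finset _).symm
        _ ≤ (T : Set G).ncard := Set.ncard_le_ncard hsub (Set.toFinite _)
        _ = Nat.card T := (Nat.card_coe_set_eq _).symm
    have hT8 : Nat.card T = 8 := by
      have h8 : Nat.card T ∣ 8 := hcard ▸ Subgroup.card_dvd_of_le hTS
      exact (Nat.eq_of_dvd_of_lt_two_mul (by norm_num) h8 (by omega)).symm
    have hTeq : T = (S : Subgroup G) := Subgroup.eq_of_le_of_card_ge hTS (by rw [hcard, hT8])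
    -- `r` is in the radical
    have hrad : ∀ m : L, π m ∈ (S : Subgroup G) → cm m r ∈ Z₀ := by
      intro m hm
      rw [← hTeq] at hm
      obtain ⟨k, hk, hkm⟩ := hm
      have hw : k⁻¹ * m ∈ Z := by rw [← hker, map_mul, map_inv, hkm]; group
      have : m = k * (k⁻¹ * m) := by group
      have hmK : m ∈ K := by rw [this]; exact K.mul_mem hk (hZK hw)
      exact hmK.2
    have hr1 : π r ≠ 1 := by
      intro h
      apply hgV
      simp only [V, Finset.mem_insert, Finset.mem_singleton]
      rcases hrV with h1 | h1 <;> rcases hr₁V with h2 | h2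
      · left; rw [← h2, ← h1, h]
      · right; right; left
        rw [h1, h2] at h
        have := eq_inv_of_mul_eq_one_left h
        rw [this, hinv _ hy]
      · right; left
        rw [h1, h2] at h
        have := eq_inv_of_mul_eq_one_left h
        rw [this, hinv _ hx]
      · right; right; right
        rw [h1, h2] at h
        have := eq_inv_of_mul_eq_one_left (by rw [← h]; group : π s * (π y * π x) = 1)
        rw [this, mul_inv_rev, hinv _ hx, hinv _ hy]
    -- by fusion everything is in the radical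
    have hall : ∀ l m : L, π l ∈ (S : Subgroup G) → π m ∈ (S : Subgroup G) → cm l m ∈ Z₀ := by
      intro l m hl hm
      by_cases hl1 : π l = 1
      · exact hcenZ₀ l m ((hker l).mp hl1)
      · obtain ⟨n, hn, hnr⟩ := hFus S (π r) hrS hr1 (π l) hl hl1
        obtain ⟨ñ, rfl⟩ := hπsurj n
        have hw : (ñ * r * ñ⁻¹)⁻¹ * l ∈ Z := by
          rw [← hker, map_mul, map_inv, map_mul, map_mul, map_inv, hnr]; group
        have hm' : π (ñ⁻¹ * m * ñ) ∈ (S : Subgroup G) := by
          rw [map_mul, map_mul, map_inv]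
          refine (Subgroup.mem_normalizer_iff.mp hn ((π ñ)⁻¹ * π m * π ñ)).mpr ?_
          have : π ñ * ((π ñ)⁻¹ * π m * π ñ) * (π ñ)⁻¹ = π m := by group
          rw [this]; exact hm
        have hl' : π (ñ * r * ñ⁻¹) ∈ (S : Subgroup G) := by
          rw [map_mul, map_mul, map_inv, hnr]; exact hl
        have hcc := hcen _ (hcmZ r (ñ⁻¹ * m * ñ) hrS hm') ñ
        have hc1 : cm (ñ * r * ñ⁻¹) (ñ * (ñ⁻¹ * m * ñ) * ñ⁻¹) = cm r (ñ⁻¹ * m * ñ) := by
          rw [cm_conj, ← hcc]; group
        have hm2 : ñ * (ñ⁻¹ * m * ñ) * ñ⁻¹ = m := by group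
        rw [hm2] at hc1
        have hc2 : cm (ñ * r * ñ⁻¹) m ∈ Z₀ := by
          rw [hc1]; exact hsym _ _ (hrad _ hm')
        have hw1 : π ((ñ * r * ñ⁻¹)⁻¹ * l) ∈ (S : Subgroup G) := by
          rw [(hker _).mpr hw]; exact one_mem _
        have hfin := hO1 (ñ * r * ñ⁻¹) ((ñ * r * ñ⁻¹)⁻¹ * l) m hl' hw1 hm hc2 (hcenZ₀ _ m hw)
        have hl2 : ñ * r * ñ⁻¹ * ((ñ * r * ñ⁻¹)⁻¹ * l) = l := by group
        rw [hl2] at hfin
        exact hfin
    exact hzZ₀ (hall x y hx hy)
  -- transfer into the abelian preimage of `S`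
  let Shat : Subgroup L := (S : Subgroup G).comap π
  have hcomm : IsMulCommutative ↥Shat := ⟨⟨fun a b => Subtype.ext (hab a b a.2 b.2)⟩⟩
  have htriv : ∀ l : L, MonoidHom.transfer (MonoidHom.id ↥Shat) l = 1 := by
    intro l
    have h1 : commutator L ≤ (MonoidHom.transfer (MonoidHom.id ↥Shat)).ker :=
      Abelianization.commutator_subset_ker _
    rw [hperf] at h1
    exact MonoidHom.mem_ker.mp (h1 (Subgroup.mem_top l))
  rw [Subgroup.eq_bot_iff_forall]
  intro w hw
  have key : ∀ (k : ℕ) (g₀ : L), g₀⁻¹ * w ^ k * g₀ ∈ Shat → g₀⁻¹ * w ^ k * g₀ = w ^ k := by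
    intro k g₀ _
    have := hcen (w ^ k) (Z.pow_mem hw k) g₀
    rw [mul_assoc, this]; group
  have h2 := MonoidHom.transfer_eq_pow (MonoidHom.id ↥Shat) w key
  rw [htriv] at h2
  have h3 : w ^ Shat.index = 1 := by
    have := congrArg Subtype.val h2
    simpa using this.symm
  have hidx : Shat.index = (S : Subgroup G).index := Subgroup.index_comap_of_surjective _ hπsurj
  have hodd : ¬ 2 ∣ Shat.index := by rw [hidx]; exact S.not_dvd_index
  obtain ⟨k, hk⟩ := hZ2 ⟨w, hw⟩
  have hk' : w ^ 2 ^ k = 1 := by simpa using congrArg Subtype.val hk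
  have h4 : orderOf w ∣ Shat.index := orderOf_dvd_of_pow_eq_one h3
  have h5 : orderOf w ∣ 2 ^ k := orderOf_dvd_of_pow_eq_one hk'
  have hcop : Nat.Coprime (2 ^ k) Shat.index :=
    Nat.Coprime.pow_left k ((Nat.Prime.coprime_iff_not_dvd Nat.prime_two).mpr hodd)
  have h6 : orderOf w = 1 := Nat.dvd_one.mp (hcop ▸ Nat.dvd_gcd h5 h4)
  exact orderOf_eq_one_iff.mp h6

end Cfsg.Agent.Lib.Helper34.JR
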